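import Cfsg.Agent.H587.NR.He
import Cfsg.Agent.H609.TH.Expl
import Cfsg.Agent.H257.Cov.Tools
import Cfsg.Agent.OrdDiv.Table
import Cfsg.Agent.H679.SpHe
import Cfsg.Agent.KFacts.He.Classes
import Cfsg.Agent.KFacts.He.Outer
import Cfsg.Agent.S1695

/-!
# S3938: 3/2-generation of the Held group (task 5120, helper328)

* inner automorphisms of prime order: for representatives `x` explicit `y` such that `⟨x, y⟩` contains elements of
  orders 17 and 7 (no proper subgroup does);
* outer involutory automorphisms `α`: no proper `α`-invariant subgroup contains `x₀` of order 17.  It would normalise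
  `⟨x₀⟩` or `N = L₂(16), L₂(17), S₄(4)`; the automorphisms mapping `x₀` to `x₀ ^ i` are inner iff `i` is a square.
-/

set_option autoImplicit false
set_option maxRecDepth 100000

namespace Cfsg.Agent.H328.SprHe

open Subgroup Cfsg
open Cfsg.Spor.He (Gen)
open Cfsg.Agent.SporadicB.HePerm (act wd phi phi_wd_apply gens mem_gens)
open Cfsg.Agent.FixBN.HeStab Cfsg.Agent.KFacts.He.Lv Cfsg.Agent.CpAutHe.Cnt
open Cfsg.Agent.H587.NR Cfsg.Agent.H587.NR.He
open Cfsg.Agent.H609.TH

/-- the letters `x, y, x⁻¹, y⁻¹` -/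
def lx (X Y : List Gen) : ℕ → List Gen
  | 0 => X
  | 1 => Y
  | 2 => X.reverse
  | _ => Y.reverse

/-- words in `x, y` -/
def ew (X Y : List Gen) : List ℕ → List Gen
  | [] => []
  | c :: l => lx X Y c ++ ew X Y l

theorem lx_mem (X Y : List Gen) (c : ℕ) : wd (lx X Y c) ∈ closure ({wd Y, wd X} : Set Cfsg.Spor.He) := by
  have h1 : wd X ∈ closure ({wd Y, wd X} : Set Cfsg.Spor.He) := Subgroup.subset_closure (Or.inr rfl)
  have h2 : wd Y ∈ closure ({wd Y, wd X} : Set Cfsg.Spor.He) := Subgroup.subset_closure (Or.inl rfl)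
  match c with
  | 0 => exact h1
  | 1 => exact h2
  | 2 =>
    rw [show lx X Y 2 = X.reverse from rfl, wd_reverse]
    exact inv_mem h1
  | n + 3 =>
    rw [show lx X Y (n + 3) = Y.reverse from rfl, wd_reverse]
    exact inv_mem h2

theorem ew_mem (X Y : List Gen) (l : List ℕ) : wd (ew X Y l) ∈ closure ({wd Y, wd X} : Set Cfsg.Spor.He) := by
  induction l with
  | nil => exact one_mem _
  | cons c l ih =>
    rw [show ew X Y (c :: l) = lx X Y c ++ ew X Y l from rfl, wd_append]
    exact mul_mem (lx_mem X Y c) ih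

/-- the certificate: words in `X`, `Y` of orders 17 and (the `d`-th power) 7 -/
def genB (X Y : List Gen) (l₁ l₂ : List ℕ) (d : ℕ) : Bool :=
  and (and (chkB (pw (ew X Y l₁) 17) []) (not (chkB (ew X Y l₁) [])))
    (and (chkB (pw (ew X Y l₂) (d * 7)) []) (not (chkB (pw (ew X Y l₂) d) [])))

theorem goodI_of_genB (H : Cfsg.Agent.H257.Cov.OInc Cfsg.Spor.He 17 7) {X Y : List Gen} {l₁ l₂ : List ℕ} {d : ℕ}
    (h : genB X Y l₁ l₂ d = true) : GoodI (wd X) := by
  have h17 : Fact (Nat.Prime 17) := ⟨by norm_num⟩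
  have h7 : Fact (Nat.Prime 7) := ⟨by norm_num⟩
  unfold genB at h
  simp only [Bool.and_eq_true] at h
  obtain ⟨⟨h1, h2⟩, h3, h4⟩ := h
  have e1 := eq_of_chkB h1
  have e3 := eq_of_chkB h3
  rw [wd_pw, wd_nil] at e1 e3
  have e2 : wd (ew X Y l₁) ≠ 1 := by
    rw [← wd_nil]
    exact ne_of_chkB (by simpa using h2)
  have e4 : wd (ew X Y l₂) ^ d ≠ 1 := by
    rw [← wd_pw, ← wd_nil]
    exact ne_of_chkB (by simpa using h4)
  refine ⟨wd Y, ?_⟩
  by_contra hne
  exact H _ hne _ (ew_mem X Y l₁) _ (pow_mem (ew_mem X Y l₂) d) (orderOf_eq_prime e1 e2)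
    (orderOf_eq_prime (by rw [← pow_mul, e3]) e4)

def A3 : List Gen := [.c, .f, .d, .g, .d, .c, .e, .d, .c, .g, .b, .e, .d, .g, .e, .c, .d, .c, .g, .d, .e, .b, .g, .c, .d, .e, .c, .d, .g, .d, .c, .d]

def B3 : List Gen := [.b, .e, .d, .g, .e, .c, .d, .c, .g, .d, .e, .b]

def W3 : List Gen := [.d, .f]

def W17 : List Gen := [.f, .g, .c, .b, .d, .g, .e]

theorem i_a : genB [.a] [.b, .c, .d, .f] [1] [0, 1] 3 = true := by decide +kernel

theorem i_d : genB [.d] [.b, .c, .f, .d, .e] [0, 1] [1] 3 = true := by decide +kernel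

theorem c7_w : genB W7 [.f] [0, 0, 0, 1] [0] 1 = true := by decide +kernel

theorem c7_b : genB B7 [.a] [0, 1] [0] 1 = true := by decide +kernel

theorem c7_0 : genB X7_0 [.b, .f] [0, 1] [0] 1 = true := by decide +kernel

theorem c7_1 : genB X7_1 [.a, .c] [0, 1] [0] 1 = true := by decide +kernel

theorem c7_2 : genB X7_2 [.a] [0, 1] [0] 1 = true := by decide +kernel

theorem c7_3 : genB X7_3 [.c] [0, 1] [0] 1 = true := by decide +kernel

theorem c7_4 : genB X7_4 [.d] [0, 1] [0] 1 = true := by decide +kernel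

theorem c7_5 : genB X7_5 [.f] [0, 1] [0] 1 = true := by decide +kernel

theorem c7_6 : genB X7_6 [.c, .d] [0, 1] [0] 1 = true := by decide +kernel

theorem c5_b : genB B5 [.a, .b] [0, 1] [0, 0, 1] 1 = true := by decide +kernel

theorem c5_0 : genB X5_0 [.b, .f] [0, 1, 2, 1] [0, 1] 4 = true := by decide +kernel

theorem c5_1 : genB X5_1 [.b, .c] [0, 0, 1] [0, 3] 2 = true := by decide +kernel

theorem c5_2 : genB X5_2 [.b, .a] [0, 0, 3] [0, 1] 1 = true := by decide +kernel

theorem c5_3 : genB X5_3 [.b, .c] [0, 1] [0, 0, 1] 2 = true := by decide +kernel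

theorem c5_4 : genB X5_4 [.b, .c] [0, 0, 1] [0, 1] 3 = true := by decide +kernel

theorem c17 : genB W17 [.c, .g] [0] [0, 1] 2 = true := by decide +kernel

theorem c3_w : genB W3 [.a, .b, .c] [0, 1, 1] [0, 1] 3 = true := by decide +kernel

theorem c3_b : genB B3 [.a, .b, .c] [0, 1, 2, 1] [0, 1] 2 = true := by decide +kernel

theorem c3_0 : genB A3 [.b, .c] [0, 1, 2, 3] [0, 1] 2 = true := by decide +kernel

theorem c3_1 : genB (A3 ++ B3) [.c, .d] [0, 1, 2, 1] [0, 1] 3 = true := by decide +kernel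

theorem c3_2 : genB (A3 ++ (B3 ++ B3)) [.c, .e] [0, 1, 2, 1] [0, 1] 2 = true := by decide +kernel


/-! ### The elements of order 17 -/

theorem sc : Cfsg.Agent.H537.Cop.SC 17 Cfsg.Spor.He := by
  intro x hx
  have : Finite Cfsg.Spor.He := Nat.finite_of_card_ne_zero (by rw [card_he]; norm_num)
  refine le_antisymm (H679.SpHe.card_cent_of hx) ?_
  rw [← hx]
  exact Nat.le_of_dvd Nat.card_pos (Subgroup.orderOf_dvd_natCard _ (mem_centralizer_singleton_iff.2 rfl))

/-- the factorisation of the order -/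
def fl : List (ℕ × ℕ) := [(2, 10), (3, 3), (5, 2), (7, 3), (17, 1)]

theorem chk_n : chkN 4030387200 fl 17 = true := by decide +kernel

theorem chk_f : Cfsg.Agent.H257.El.chkF 4030387200 fl 17 7 [] = true := by decide +kernel

theorem oinc (known : Cfsg.Agent.H257.El.Known.{0}) : Cfsg.Agent.H257.Cov.OInc Cfsg.Spor.He 17 7 := by
  have : Finite Cfsg.Spor.He := Nat.finite_of_card_ne_zero (by rw [card_he]; norm_num)
  have h17 : Fact (Nat.Prime 17) := ⟨by norm_num⟩
  refine Cfsg.Agent.H257.Cov.oinc_of_primes Cfsg.Agent.OrdDiv.table known card_he (by norm_num) (by norm_num)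
    (fun z hz => ?_) chk_f
  have h1 : orderOf (z ^ 7) = 17 := by
    rw [orderOf_pow_of_dvd (by norm_num) (by rw [hz]; norm_num), hz]
  have h2 : orderOf (z ^ 17) = 7 := by
    rw [orderOf_pow_of_dvd (by norm_num) (by rw [hz]; norm_num), hz]
  refine H679.SpHe.no_comm (x := z ^ 17) h1 (by rw [h2]; norm_num) (by rw [h2]; norm_num) ?_
  exact ((Commute.refl z).pow_pow 7 17).eq

/-! ### Inner automorphisms -/

theorem good_seven (H : Cfsg.Agent.H257.Cov.OInc Cfsg.Spor.He 17 7) {x : Cfsg.Spor.He} (hx : orderOf x = 7) :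
    GoodI x := by
  have h7 : Fact (Nat.Prime 7) := ⟨by norm_num⟩
  have : Finite Cfsg.Spor.He := Nat.finite_of_card_ne_zero (by rw [card_he]; norm_num)
  by_contra hng
  have r1 : wd B7 * wd A7 = wd W7 * (wd A7 * wd B7) := by
    have h1 := eq_of_chkB (show chkB (B7 ++ A7) (W7 ++ (A7 ++ B7)) = true by decide +kernel)
    rwa [wd_append, wd_append, wd_append] at h1
  have r2 : wd A7 * wd W7 = wd W7 * wd A7 := by
    have h1 := eq_of_chkB (show chkB (A7 ++ W7) (W7 ++ A7) = true by decide +kernel)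
    rwa [wd_append, wd_append] at h1
  have r3 : wd B7 * wd W7 = wd W7 * wd B7 := by
    have h1 := eq_of_chkB (show chkB (B7 ++ W7) (W7 ++ B7) = true by decide +kernel)
    rwa [wd_append, wd_append] at h1
  have r4 : wd A7 ^ 7 = 1 := by
    have h1 := eq_of_chkB (show chkB (pw A7 7) [] = true by decide +kernel)
    rwa [wd_pw, wd_nil] at h1
  have r5 : wd B7 ^ 7 = 1 := by
    have h1 := eq_of_chkB (show chkB (pw B7 7) [] = true by decide +kernel)
    rwa [wd_pw, wd_nil] at h1
  have r6 : wd W7 ^ 7 = 1 := by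
    have h1 := eq_of_chkB (show chkB (pw W7 7) [] = true by decide +kernel)
    rwa [wd_pw, wd_nil] at h1
  have r7 : wd W7 ≠ 1 := by
    rw [← wd_nil]
    exact ne_of_chkB (by decide +kernel)
  have key : ∀ (j : ℕ) (X : List Gen), chkB (A7 ++ pw B7 j) X = true → wd A7 * wd B7 ^ j = wd X := by
    intro j X hj
    have h1 := eq_of_chkB hj
    rwa [wd_append, wd_pw] at h1
  rcases exists_extra (p := 7) r1 r2 r3 r4 r5 r6 r7 (by rw [card_he]; norm_num) (S := fun x => ¬ GoodI x)
    (fun x k h h' => h (h'.of_pow k)) (fun x u h h' => h (h'.of_conj u)) hx hng with h | h | ⟨j, hj, h⟩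
  · exact h (goodI_of_genB H c7_w)
  · exact h (goodI_of_genB H c7_b)
  · interval_cases j
    · exact h (by rw [key _ _ eq7_0]; exact goodI_of_genB H c7_0)
    · exact h (by rw [key _ _ eq7_1]; exact goodI_of_genB H c7_1)
    · exact h (by rw [key _ _ eq7_2]; exact goodI_of_genB H c7_2)
    · exact h (by rw [key _ _ eq7_3]; exact goodI_of_genB H c7_3)
    · exact h (by rw [key _ _ eq7_4]; exact goodI_of_genB H c7_4)
    · exact h (by rw [key _ _ eq7_5]; exact goodI_of_genB H c7_5)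
    · exact h (by rw [key _ _ eq7_6]; exact goodI_of_genB H c7_6)

theorem good_five (H : Cfsg.Agent.H257.Cov.OInc Cfsg.Spor.He 17 7) {x : Cfsg.Spor.He} (hx : orderOf x = 5) :
    GoodI x := by
  have h5 : Fact (Nat.Prime 5) := ⟨by norm_num⟩
  have : Finite Cfsg.Spor.He := Nat.finite_of_card_ne_zero (by rw [card_he]; norm_num)
  by_contra hng
  have r1 : wd B5 * wd A5 = wd A5 * wd B5 := by
    have h1 := eq_of_chkB (show chkB (B5 ++ A5) (A5 ++ B5) = true by decide +kernel)
    rwa [wd_append, wd_append] at h1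
  have r4 : wd A5 ^ 5 = 1 := by
    have h1 := eq_of_chkB (show chkB (pw A5 5) [] = true by decide +kernel)
    rwa [wd_pw, wd_nil] at h1
  have r5 : wd B5 ^ 5 = 1 := by
    have h1 := eq_of_chkB (show chkB (pw B5 5) [] = true by decide +kernel)
    rwa [wd_pw, wd_nil] at h1
  have r6 : wd A5 ≠ 1 := by
    rw [← wd_nil]
    exact ne_of_chkB (by decide +kernel)
  have r7 : ∀ j < 5, wd B5 ≠ wd A5 ^ j := by
    intro j hj
    rw [← wd_pw]
    apply ne_of_chkB
    interval_cases j <;> decide +kernel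
  have key : ∀ (j : ℕ) (X : List Gen), chkB (A5 ++ pw B5 j) X = true → wd A5 * wd B5 ^ j = wd X := by
    intro j X hj
    have h1 := eq_of_chkB hj
    rwa [wd_append, wd_pw] at h1
  rcases exists_abel (p := 5) r1 r4 r5 r6 r7 (by rw [card_he]; norm_num) (S := fun x => ¬ GoodI x)
    (fun x k h h' => h (h'.of_pow k)) (fun x u h h' => h (h'.of_conj u)) hx hng with h | ⟨j, hj, h⟩
  · exact h (goodI_of_genB H c5_b)
  · interval_cases j
    · exact h (by rw [key _ _ eq5_0]; exact goodI_of_genB H c5_0)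
    · exact h (by rw [key _ _ eq5_1]; exact goodI_of_genB H c5_1)
    · exact h (by rw [key _ _ eq5_2]; exact goodI_of_genB H c5_2)
    · exact h (by rw [key _ _ eq5_3]; exact goodI_of_genB H c5_3)
    · exact h (by rw [key _ _ eq5_4]; exact goodI_of_genB H c5_4)

theorem rel3_ba : wd B3 * wd A3 = wd W3 * (wd A3 * wd B3) := by
  have h1 := eq_of_chkB (show chkB (B3 ++ A3) (W3 ++ (A3 ++ B3)) = true by decide +kernel)
  rwa [wd_append, wd_append, wd_append] at h1

theorem rel3_aw : wd A3 * wd W3 = wd W3 * wd A3 := by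
  have h1 := eq_of_chkB (show chkB (A3 ++ W3) (W3 ++ A3) = true by decide +kernel)
  rwa [wd_append, wd_append] at h1

theorem rel3_bw : wd B3 * wd W3 = wd W3 * wd B3 := by
  have h1 := eq_of_chkB (show chkB (B3 ++ W3) (W3 ++ B3) = true by decide +kernel)
  rwa [wd_append, wd_append] at h1

theorem rel3_a : wd A3 ^ 3 = 1 := by
  have h1 := eq_of_chkB (show chkB (pw A3 3) [] = true by decide +kernel)
  rwa [wd_pw, wd_nil] at h1

theorem rel3_b : wd B3 ^ 3 = 1 := by
  have h1 := eq_of_chkB (show chkB (pw B3 3) [] = true by decide +kernel)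
  rwa [wd_pw, wd_nil] at h1

theorem rel3_w : wd W3 ^ 3 = 1 := by
  have h1 := eq_of_chkB (show chkB (pw W3 3) [] = true by decide +kernel)
  rwa [wd_pw, wd_nil] at h1

theorem good_three (H : Cfsg.Agent.H257.Cov.OInc Cfsg.Spor.He 17 7) {x : Cfsg.Spor.He} (hx : orderOf x = 3) :
    GoodI x := by
  have h3 : Fact (Nat.Prime 3) := ⟨by norm_num⟩
  have : Finite Cfsg.Spor.He := Nat.finite_of_card_ne_zero (by rw [card_he]; norm_num)
  by_contra hng
  have r7 : wd W3 ≠ 1 := by
    rw [← wd_nil]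
    exact ne_of_chkB (by decide +kernel)
  rcases exists_extra (p := 3) rel3_ba rel3_aw rel3_bw rel3_a rel3_b rel3_w r7 (by rw [card_he]; norm_num)
    (S := fun x => ¬ GoodI x)
    (fun x k h h' => h (h'.of_pow k)) (fun x u h h' => h (h'.of_conj u)) hx hng with h | h | ⟨j, hj, h⟩
  · exact h (goodI_of_genB H c3_w)
  · exact h (goodI_of_genB H c3_b)
  · interval_cases j
    · apply h
      rw [pow_zero, mul_one]
      exact goodI_of_genB H c3_0
    · apply h
      rw [pow_one, ← wd_append]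
      exact goodI_of_genB H c3_1
    · apply h
      rw [pow_two, ← wd_append, ← wd_append]
      exact goodI_of_genB H c3_2

theorem good_two (H : Cfsg.Agent.H257.Cov.OInc Cfsg.Spor.He 17 7) {x : Cfsg.Spor.He} (hx : orderOf x = 2) :
    GoodI x := by
  have h1 : x * x = 1 := by rw [← pow_two, ← hx, pow_orderOf_eq_one]
  have h2 : x ≠ 1 := by
    rintro rfl
    rw [orderOf_one] at hx
    exact absurd hx (by norm_num)
  rcases Cfsg.Agent.KFacts.He.Classes.two_classes_ad h1 h2 with ⟨g, hg⟩ | ⟨g, hg⟩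
  · refine GoodI.of_conj g⁻¹ ?_
    have h3 : g⁻¹ * x * g⁻¹⁻¹ = wd [.d] := by
      rw [wd_one, ← hg]
      group
      rfl
    rw [h3]
    exact goodI_of_genB H i_d
  · refine GoodI.of_conj g⁻¹ ?_
    have h3 : g⁻¹ * x * g⁻¹⁻¹ = wd [.a] := by
      rw [wd_one, ← hg]
      group
      rfl
    rw [h3]
    exact goodI_of_genB H i_a

theorem orderOf_w17 : orderOf (wd W17) = 17 := by
  have h17 : Fact (Nat.Prime 17) := ⟨by norm_num⟩
  refine orderOf_eq_prime ?_ ?_
  · have h1 := eq_of_chkB (show chkB (pw W17 17) [] = true by decide +kernel)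
    rwa [wd_pw, wd_nil] at h1
  · rw [← wd_nil]
    exact ne_of_chkB (by decide +kernel)

theorem good_inner (H : Cfsg.Agent.H257.Cov.OInc Cfsg.Spor.He 17 7) {x : Cfsg.Spor.He} (hp : (orderOf x).Prime) :
    GoodI x := by
  have : Finite Cfsg.Spor.He := Nat.finite_of_card_ne_zero (by rw [card_he]; norm_num)
  obtain ⟨p, hx⟩ : ∃ p, p = orderOf x := ⟨_, rfl⟩
  rw [← hx] at hp
  have h1 : p ∣ 2 ^ 10 * 3 ^ 3 * 5 ^ 2 * 7 ^ 3 * 17 := by
    have h3 : (4030387200 : ℕ) = 2 ^ 10 * 3 ^ 3 * 5 ^ 2 * 7 ^ 3 * 17 := by norm_num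
    rw [← h3, ← card_he, hx]
    exact orderOf_dvd_natCard x
  rcases (Nat.Prime.dvd_mul hp).1 h1 with h1 | h1
  · rcases (Nat.Prime.dvd_mul hp).1 h1 with h1 | h1
    · rcases (Nat.Prime.dvd_mul hp).1 h1 with h1 | h1
      · rcases (Nat.Prime.dvd_mul hp).1 h1 with h1 | h1
        · have h2 := (Nat.prime_dvd_prime_iff_eq hp Nat.prime_two).1 (hp.dvd_of_dvd_pow h1)
          exact good_two H (hx.symm.trans h2)
        · have h2 := (Nat.prime_dvd_prime_iff_eq hp Nat.prime_three).1 (hp.dvd_of_dvd_pow h1)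
          exact good_three H (hx.symm.trans h2)
      · have h2 := (Nat.prime_dvd_prime_iff_eq hp (by norm_num)).1 (hp.dvd_of_dvd_pow h1)
        exact good_five H (hx.symm.trans h2)
    · have h2 := (Nat.prime_dvd_prime_iff_eq hp (by norm_num)).1 (hp.dvd_of_dvd_pow h1)
      exact good_seven H (hx.symm.trans h2)
  · have h2 := (Nat.prime_dvd_prime_iff_eq hp (by norm_num)).1 h1
    exact goodI_of_sq (p := 17) (by norm_num) (by rw [card_he]; norm_num) orderOf_w17
      (goodI_of_genB H c17) x (hx.symm.trans h2)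

theorem finite_he : Finite Cfsg.Spor.He := Nat.finite_of_card_ne_zero (by rw [card_he]; norm_num)

/-! ### No elements of order 9 -/

theorem cube_chk : ((List.range 3).all fun l => (List.range 3).all fun i => (List.range 3).all fun j =>
    chkB (pw (pw W3 l ++ (pw A3 i ++ pw B3 j)) 3) []) = true := by decide +kernel

theorem cube {x : Cfsg.Spor.He} (hx : x ∈ closure ({wd A3, wd B3} : Set Cfsg.Spor.He)) : x ^ 3 = 1 := by
  obtain ⟨l, i, j, h⟩ := normal_form rel3_ba rel3_aw rel3_bw (by norm_num) rel3_a rel3_b hx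
  have hm : ∀ (y : Cfsg.Spor.He) (_ : y ^ 3 = 1) (k : ℕ), y ^ k = y ^ (k % 3) := fun y hy k =>
    pow_eq_pow_mod k hy
  rw [h, hm _ rel3_w l, hm _ rel3_a i, hm _ rel3_b j]
  have h1 := cube_chk
  rw [List.all_eq_true] at h1
  have h2 := h1 (l % 3) (List.mem_range.2 (Nat.mod_lt _ (by norm_num)))
  rw [List.all_eq_true] at h2
  have h3 := h2 (i % 3) (List.mem_range.2 (Nat.mod_lt _ (by norm_num)))
  rw [List.all_eq_true] at h3
  have h4 := h3 (j % 3) (List.mem_range.2 (Nat.mod_lt _ (by norm_num)))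
  have h5 := eq_of_chkB h4
  rwa [wd_pw, wd_append, wd_append, wd_pw, wd_pw, wd_pw, wd_nil] at h5

theorem no_nine (x : Cfsg.Spor.He) (hx : orderOf x = 9) : False := by
  have h3 : Fact (Nat.Prime 3) := ⟨by norm_num⟩
  have := finite_he
  set Q : Subgroup Cfsg.Spor.He := closure ({wd A3, wd B3} : Set Cfsg.Spor.He) with hQdef
  have hQ : IsPGroup 3 Q := isPGroup_closure rel3_ba rel3_aw rel3_bw (by norm_num) rel3_a rel3_b rel3_w
  have haQ : wd A3 ∈ Q := Subgroup.subset_closure (by simp)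
  have hbQ : wd B3 ∈ Q := Subgroup.subset_closure (by simp)
  have hi : ¬ 3 ∣ Q.index := by
    refine not_dvd_index (n := 3) ?_ (by rw [card_he]; norm_num)
    obtain ⟨n, hn⟩ := IsPGroup.iff_card.1 hQ
    rw [hn]
    refine pow_dvd_pow 3 ?_
    by_contra h3
    have hcomm : ∀ u v : Q, u * v = v * u := by
      have h4 : n = 0 ∨ n = 1 ∨ n = 2 := by omega
      rcases h4 with rfl | rfl | rfl
      · have : Subsingleton Q := (Nat.card_eq_one_iff_unique.1 (by rw [hn, pow_zero])).1
        intro u v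
        exact Subsingleton.elim _ _
      · have : IsCyclic Q := isCyclic_of_prime_card (by rw [hn, pow_one])
        exact (IsCyclic.isMulCommutative (α := Q)).is_comm.comm
      · exact (IsPGroup.isMulCommutative_of_card_eq_prime_sq hn).is_comm.comm
    have h5 : wd B3 * wd A3 = wd A3 * wd B3 := congrArg Subtype.val (hcomm ⟨_, hbQ⟩ ⟨_, haQ⟩)
    have h6 : wd (B3 ++ A3) = wd (A3 ++ B3) := by rw [wd_append, wd_append, h5]
    exact ne_of_chkB (show chkB (B3 ++ A3) (A3 ++ B3) = false by decide +kernel) h6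
  let P : Sylow 3 Cfsg.Spor.He := hQ.toSylow hi
  have hx' : IsPGroup 3 ↥(zpowers x) := IsPGroup.of_card (n := 2) (by rw [Nat.card_zpowers, hx]; norm_num)
  obtain ⟨P', hP'⟩ := hx'.exists_le_sylow
  obtain ⟨g, hg⟩ := MulAction.exists_smul_eq Cfsg.Spor.He P' P
  have h1 : g * x * g⁻¹ ∈ (P : Subgroup Cfsg.Spor.He) := by
    rw [← hg, Sylow.coe_subgroup_smul]
    exact smul_mem_pointwise_smul x (MulAut.conj g) _ (hP' (mem_zpowers x))
  have h2 := cube h1
  have h4 : x ^ 3 = 1 := by
    rw [conj_pow] at h2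
    have h5 : g * x ^ 3 = g := by rw [mul_inv_eq_one] at h2; exact h2
    exact mul_eq_left.1 h5
  have h5 := orderOf_dvd_of_pow_eq_one h4
  rw [hx] at h5
  revert h5
  norm_num

/-! ### Elements of order 9 of `PSL₂(17)` -/

section PSL

open Matrix

variable {F : Type} [Field F]

/-- an element of order 9 (characteristic 17) -/
def mN : SpecialLinearGroup (Fin 2) F := ⟨!![0, -1; 1, 7], by simp [Matrix.det_fin_two]⟩

theorem mN_cube (h17 : (17 : F) = 0) : ((mN : SpecialLinearGroup (Fin 2) F) ^ 3).1 = !![10, 3; 14, 6] := by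
  have h : ((mN : SpecialLinearGroup (Fin 2) F) ^ 3).1 = (mN : SpecialLinearGroup (Fin 2) F).1 *
      ((mN : SpecialLinearGroup (Fin 2) F).1 * (mN : SpecialLinearGroup (Fin 2) F).1) := by
    rw [pow_succ', pow_two]
    rfl
  rw [h]
  ext i j
  fin_cases i <;> fin_cases j <;> simp [mN, Matrix.mul_apply, Fin.sum_univ_two]
  · linear_combination (-1 : F) * h17
  · linear_combination (-3 : F) * h17
  · linear_combination (2 : F) * h17
  · linear_combination (19 : F) * h17

theorem mN_nine (h17 : (17 : F) = 0) : (mN : SpecialLinearGroup (Fin 2) F) ^ 9 = 1 := by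
  apply Subtype.ext
  have h : ((mN : SpecialLinearGroup (Fin 2) F) ^ 9).1 = ((mN : SpecialLinearGroup (Fin 2) F) ^ 3).1 *
      (((mN : SpecialLinearGroup (Fin 2) F) ^ 3).1 * ((mN : SpecialLinearGroup (Fin 2) F) ^ 3).1) := by
    rw [show (9 : ℕ) = 3 * 3 from rfl, pow_mul, pow_succ' _ 2, pow_two]
    rfl
  rw [h, mN_cube h17]
  ext i j
  fin_cases i <;> fin_cases j <;> simp [Matrix.mul_apply, Fin.sum_univ_two]
  · linear_combination (123 : F) * h17
  · linear_combination (42 : F) * h17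
  · linear_combination (196 : F) * h17
  · linear_combination (67 : F) * h17

theorem exists_nine [Fintype F] (hF : Fintype.card F = 17) :
    ∃ x : ProjectiveSpecialLinearGroup (Fin 2) F, orderOf x = 9 := by
  have h17 : Fact (Nat.Prime 17) := ⟨by norm_num⟩
  have h3 : Fact (Nat.Prime 3) := ⟨by norm_num⟩
  have hc : CharP F 17 := charP_of_card_eq_prime hF
  have h0 : (17 : F) = 0 := by
    have := CharP.cast_eq_zero F 17
    exact_mod_cast this
  refine ⟨QuotientGroup.mk' _ mN, ?_⟩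
  refine orderOf_eq_prime_pow (p := 3) (n := 1) ?_ ?_
  · rw [pow_one, ← map_pow]
    intro h1
    have h2 := (QuotientGroup.eq_one_iff _).1 h1
    rw [Matrix.SpecialLinearGroup.mem_center_iff] at h2
    obtain ⟨r, -, hr⟩ := h2
    have h4 := congrFun (congrFun hr 1) 0
    rw [mN_cube h0] at h4
    simp at h4
    have h5 : (1 : F) = 0 := by linear_combination (5 : F) * h0 + (6 : F) * h4
    exact one_ne_zero h5
  · rw [← map_pow, show 3 ^ (1 + 1) = 9 from rfl, mN_nine h0, map_one]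

end PSL

/-! ### No subgroups normalised by an element of order 17 -/

theorem free17 : Free 17 Cfsg.Spor.He := by
  have hfin := finite_he
  have h17 : Fact (Nat.Prime 17) := ⟨by norm_num⟩
  obtain ⟨p, y₀, hp, hp5, hy₀, hsq, -, -, hSU⟩ := H679.SpHe.he (G := Cfsg.Spor.He) ⟨MulEquiv.refl _⟩
  have hpd : p ∣ 2 ^ 10 * 3 ^ 3 * 5 ^ 2 * 7 ^ 3 * 17 := by
    have h3 : (4030387200 : ℕ) = 2 ^ 10 * 3 ^ 3 * 5 ^ 2 * 7 ^ 3 * 17 := by norm_num
    rw [← h3, ← card_he, ← hy₀]
    exact orderOf_dvd_natCard _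
  rw [card_he] at hsq
  have hp17 : p = 17 := by
    rcases (Nat.Prime.dvd_mul hp).1 hpd with h1 | h1
    · exfalso
      rcases (Nat.Prime.dvd_mul hp).1 h1 with h1 | h1
      · rcases (Nat.Prime.dvd_mul hp).1 h1 with h1 | h1
        · rcases (Nat.Prime.dvd_mul hp).1 h1 with h1 | h1
          · have := (Nat.prime_dvd_prime_iff_eq hp Nat.prime_two).1 (hp.dvd_of_dvd_pow h1)
            omega
          · have := (Nat.prime_dvd_prime_iff_eq hp Nat.prime_three).1 (hp.dvd_of_dvd_pow h1)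
            omega
        · have := (Nat.prime_dvd_prime_iff_eq hp (by norm_num)).1 (hp.dvd_of_dvd_pow h1)
          subst this
          revert hsq
          norm_num
      · have := (Nat.prime_dvd_prime_iff_eq hp (by norm_num)).1 (hp.dvd_of_dvd_pow h1)
        subst this
        revert hsq
        norm_num
    · exact (Nat.prime_dvd_prime_iff_eq hp (by norm_num)).1 h1
  subst hp17
  rw [← card_he] at hsq
  intro y hy q hq hq17 R hR hyR
  have hq' : Fact q.Prime := ⟨hq⟩
  obtain ⟨g, hg⟩ := Cfsg.Agent.H257.El.conj_of_cyclic (fun S => Cfsg.Agent.H257.El.cyclic_of_sq hsq S) hy₀ hy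
  have hg1 : orderOf (g * y * g⁻¹) = 17 := by
    rw [← hy]
    exact orderOf_injective (MulAut.conj g).toMonoidHom (MulAut.conj g).injective y
  have hgz : zpowers (g * y * g⁻¹) = zpowers y₀ := by
    refine eq_of_le_of_card_ge (by rwa [zpowers_le]) ?_
    rw [Nat.card_zpowers, Nat.card_zpowers, hg1, hy₀]
  set M₀ : Subgroup Cfsg.Spor.He := R ⊔ zpowers y with hM₀
  have hyM₀ : y ∈ M₀ := (le_sup_right : zpowers y ≤ M₀) (mem_zpowers y)
  have hsol : Group.IsSolvable M₀ := by
    refine SignalizersComponents.CoprimeBasic.isSolvable_sup (by rwa [zpowers_le]) ?_ ?_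
    · have := hR.isNilpotent
      infer_instance
    · infer_instance
  set M : Subgroup Cfsg.Spor.He := M₀.map (MulAut.conj g).toMonoidHom with hM
  have hsolM : Group.IsSolvable M :=
    Group.isSolvable_of_surjective (f := (MulAut.conj g).toMonoidHom.subgroupMap M₀)
      (MonoidHom.subgroupMap_surjective _ _)
  have hmemM : ∀ z ∈ M₀, g * z * g⁻¹ ∈ M := fun z hz => ⟨z, hz, rfl⟩
  have hy₀M : zpowers y₀ ≤ M := by
    rw [← hgz, zpowers_le]
    exact hmemM y hyM₀
  have hcomm : ∀ u ∈ R, u * y * u⁻¹ ∈ zpowers y := by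
    intro u hu
    have huM : u ∈ M₀ := (le_sup_left : R ≤ M₀) hu
    have h1 : zpowers (g * (u * y * u⁻¹) * g⁻¹) ≤ M := by
      rw [zpowers_le]
      exact hmemM _ (mul_mem (mul_mem huM hyM₀) (inv_mem huM))
    have ho : orderOf (g * (u * y * u⁻¹) * g⁻¹) = 17 := by
      have h2 := orderOf_injective (MulAut.conj (g * u)).toMonoidHom (MulAut.conj (g * u)).injective y
      have h3 : (MulAut.conj (g * u)).toMonoidHom y = g * (u * y * u⁻¹) * g⁻¹ := by
        change g * u * y * (g * u)⁻¹ = _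
        group
      rw [← h3, h2, hy]
    have h2 := hSU M hsolM (hy₀M (mem_zpowers _)) _ _ h1 hy₀M (by rw [Nat.card_zpowers, ho])
      (by rw [Nat.card_zpowers, hy₀])
    have h3 : g * (u * y * u⁻¹) * g⁻¹ ∈ zpowers (g * y * g⁻¹) := by
      rw [hgz, ← h2]
      exact mem_zpowers _
    obtain ⟨k, hk⟩ := mem_zpowers_iff.1 h3
    refine mem_zpowers_iff.2 ⟨k, ?_⟩
    have h4 : g * y ^ k * g⁻¹ = g * (u * y * u⁻¹) * g⁻¹ := by rw [← hk, conj_zpow]
    exact mul_left_cancel (mul_right_cancel h4)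
  have hinf : ∀ z ∈ R, z ∈ zpowers y → z = 1 := by
    intro z hz hzy
    have h1 : orderOf z ∣ 17 := by
      have := Subgroup.orderOf_dvd_natCard _ hzy
      rwa [Nat.card_zpowers, hy] at this
    rcases (Nat.dvd_prime (by norm_num)).1 h1 with h2 | h2
    · exact orderOf_eq_one_iff.1 h2
    · exfalso
      obtain ⟨b, hb⟩ := IsPGroup.iff_card.1 hR
      have h3 := Subgroup.orderOf_dvd_natCard _ hz
      rw [h2, hb] at h3
      exact hq17 ((Nat.prime_dvd_prime_iff_eq (by norm_num) hq).1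
        ((by norm_num : Nat.Prime 17).dvd_of_dvd_pow h3)).symm
  rw [eq_bot_iff]
  intro u hu
  have h1 : u * y * u⁻¹ * y⁻¹ = 1 := by
    refine hinf _ ?_ (mul_mem (hcomm u hu) (inv_mem (mem_zpowers y)))
    have h2 : u * y * u⁻¹ * y⁻¹ = u * (y * u⁻¹ * y⁻¹) := by group
    rw [h2]
    exact mul_mem hu ((mem_normalizer_iff.1 hyR _).1 (inv_mem hu))
  have h2 : u * y = y * u := by
    calc u * y = (u * y * u⁻¹ * y⁻¹) * y * u := by group
      _ = y * u := by rw [h1, one_mul]
  exact mem_bot.2 (hinf u hu (mem_zpowers_of_comm sc hy h2))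

/-! ### An outer automorphism -/

/-- the diagram automorphism -/
def sg : Gen → Gen
  | .a => .a
  | .b => .b
  | .c => .c
  | .d => .d
  | .e => .e
  | .f => .g
  | .g => .f

theorem sg_sg (x : Gen) : sg (sg x) = x := by cases x <;> rfl

theorem sg_cox (x y : Gen) : (gn (sg x) * gn (sg y)) ^ Cfsg.Spor.coxLabel Cfsg.Spor.He.edges x y = 1 := by
  have h : (gens.all fun x => gens.all fun y =>
      chkB (pw [sg x, sg y] (Cfsg.Spor.coxLabel Cfsg.Spor.He.edges x y)) []) = true := by decide +kernel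
  rw [List.all_eq_true] at h
  have h1 := h x (mem_gens x)
  rw [List.all_eq_true] at h1
  have h2 := eq_of_chkB (h1 y (mem_gens y))
  rwa [wd_pw, wd_nil, wd_cons, wd_one] at h2

theorem sg_rel : ∀ r ∈ Cfsg.Spor.coxRelators Cfsg.Spor.He.edges ∪ {r | r ∈ Cfsg.Spor.He.extra},
    FreeGroup.lift (fun x => gn (sg x)) r = 1 := by
  rintro r (⟨x, -, y, -, rfl⟩ | hr)
  · rw [map_pow, map_mul, FreeGroup.lift_apply_of, FreeGroup.lift_apply_of]
    exact sg_cox x y
  · have hr' : r ∈ Cfsg.Spor.He.extra := hr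
    simp only [Cfsg.Spor.He.extra, List.mem_cons, List.not_mem_nil, or_false] at hr'
    rcases hr' with rfl | rfl | rfl | rfl
    · simp only [map_mul, map_inv, map_pow, FreeGroup.lift_apply_of]
      have h1 := eq_of_chkB (show chkB [.e] (pw [.g, .f] 2) = true by decide +kernel)
      rw [wd_pw, wd_one, wd_cons, wd_one] at h1
      exact mul_inv_eq_one.2 h1
    · simp only [map_mul, map_inv, map_pow, FreeGroup.lift_apply_of]
      have h1 := eq_of_chkB (show chkB [.e] (pw [.a, .b, .c] 3) = true by decide +kernel)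
      rw [wd_pw, wd_one, wd_cons, wd_cons, wd_one, ← mul_assoc] at h1
      exact mul_inv_eq_one.2 h1
    · simp only [map_mul, map_inv, map_pow, FreeGroup.lift_apply_of]
      have h1 := eq_of_chkB (show chkB [.a] (pw [.c, .d] 5) = true by decide +kernel)
      rw [wd_pw, wd_one, wd_cons, wd_one] at h1
      exact mul_inv_eq_one.2 h1
    · simp only [map_mul, map_pow, FreeGroup.lift_apply_of]
      have h1 := eq_of_chkB (show chkB (pw [.c, .d, .g, .f] 4) [] = true by decide +kernel)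
      rw [wd_pw, wd_nil, wd_cons, wd_cons, wd_cons, wd_one, ← mul_assoc, ← mul_assoc] at h1
      exact h1

/-- the homomorphism -/
noncomputable def sgHom : Cfsg.Spor.He →* Cfsg.Spor.He := PresentedGroup.toGroup sg_rel

theorem sgHom_gn (x : Gen) : sgHom (gn x) = gn (sg x) := PresentedGroup.toGroup.of sg_rel

theorem sgHom_wd (w : List Gen) : sgHom (wd w) = wd (w.map sg) := by
  induction w with
  | nil => rw [wd_nil, map_one, List.map_nil, wd_nil]
  | cons x w ih => rw [wd_cons, map_mul, ih, sgHom_gn, List.map_cons, wd_cons]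

theorem sgHom_sgHom (x : Cfsg.Spor.He) : sgHom (sgHom x) = x := by
  have h : sgHom.comp sgHom = MonoidHom.id _ := by
    refine PresentedGroup.ext fun y => ?_
    change sgHom (sgHom (gn y)) = gn y
    rw [sgHom_gn, sgHom_gn, sg_sg]
  exact DFunLike.congr_fun h x

/-- the automorphism -/
noncomputable def sgm : MulAut Cfsg.Spor.He where
  toFun := sgHom
  invFun := sgHom
  left_inv := sgHom_sgHom
  right_inv := sgHom_sgHom
  map_mul' := map_mul sgHom

/-- the element of order 17 -/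
def X0 : List Gen := [.g, .d, .c, .b]

/-- the conjugating element -/
def H0 : List Gen := [.e, .d, .c, .d, .f, .g, .e, .c, .b, .c, .d, .f, .g, .e, .d, .c, .d, .g, .d, .g, .f, .g,
  .d, .e, .d, .f, .g, .d, .a, .b, .d, .c, .f, .g, .d, .e, .g, .f, .d, .e, .f]

theorem orderOf_X0 : orderOf (wd X0) = 17 := by
  have h17 : Fact (Nat.Prime 17) := ⟨by norm_num⟩
  refine orderOf_eq_prime ?_ ?_
  · have h1 := eq_of_chkB (show chkB (pw X0 17) [] = true by decide +kernel)
    rwa [wd_pw, wd_nil] at h1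
  · rw [← wd_nil]
    exact ne_of_chkB (by decide +kernel)

/-- the outer automorphism -/
noncomputable def tau : MulAut Cfsg.Spor.He := MulAut.conj (wd H0) * sgm

theorem tau_X0 : tau (wd X0) = wd X0 ^ 11 := by
  change wd H0 * sgHom (wd X0) * (wd H0)⁻¹ = _
  rw [sgHom_wd, mul_inv_eq_iff_eq_mul]
  have h1 := eq_of_chkB (show chkB (H0 ++ X0.map sg) (pw X0 11 ++ H0) = true by decide +kernel)
  rwa [wd_append, wd_append, wd_pw] at h1

/-! ### The action on `⟨x₀⟩` -/

theorem pow_of_norm {G : Type*} [Group G] [Finite G] {s c : G} {e i : ℕ} (hs : orderOf s = 17) {N : Subgroup G}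
    (hcard : Nat.card (normalizer ((zpowers s : Subgroup G) : Set G) ⊓ N : Subgroup G) = 17 * e) (hc : c ∈ N)
    (h : c * s * c⁻¹ = s ^ i) : (i : ZMod 17) ^ e = 1 := by
  have h17 : Fact (Nat.Prime 17) := ⟨by norm_num⟩
  have h1 : (zpowers s).map (MulAut.conj c).toMonoidHom = zpowers s := by
    refine eq_of_le_of_card_ge ?_ (by rw [card_map_of_injective (MulAut.conj c).injective])
    rw [MonoidHom.map_zpowers, zpowers_le]
    change c * s * c⁻¹ ∈ zpowers s
    rw [h]
    exact pow_mem (mem_zpowers s) i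
  have hcn : c ∈ normalizer ((zpowers s : Subgroup G) : Set G) := by
    rw [mem_normalizer_iff]
    intro y
    constructor
    · intro hy
      rw [← h1]
      exact ⟨y, hy, rfl⟩
    · intro hy
      rw [← h1] at hy
      obtain ⟨z, hz, hzy⟩ := hy
      have : z = y := (MulAut.conj c).injective hzy
      rwa [← this]
  have h2 : c ^ (17 * e) = 1 := by
    have h3 := Subgroup.orderOf_dvd_natCard _ (mem_inf.2 ⟨hcn, hc⟩)
    rw [hcard] at h3
    exact orderOf_dvd_iff_pow_eq_one.1 h3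
  have h3 : ∀ k : ℕ, c ^ k * s * (c ^ k)⁻¹ = s ^ (i ^ k) := by
    intro k
    induction k with
    | zero => simp
    | succ k ih =>
      have h4 : c ^ (k + 1) * s * (c ^ (k + 1))⁻¹ = c * (c ^ k * s * (c ^ k)⁻¹) * c⁻¹ := by
        rw [pow_succ']
        group
      rw [h4, ih, ← conj_pow, h, ← pow_mul, ← pow_succ']
  have h4 := h3 (17 * e)
  rw [h2, one_mul, inv_one, mul_one] at h4
  have h5 : i ^ (17 * e) ≡ 1 [MOD 17] := by
    rw [← hs, ← pow_eq_pow_iff_modEq, pow_one, hs, ← h4]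
  rw [← ZMod.natCast_eq_natCast_iff] at h5
  push_cast at h5
  rw [mul_comm, pow_mul, ZMod.pow_card] at h5
  exact h5

theorem pow_inner {g : Cfsg.Spor.He} {i : ℕ} (h : g * wd X0 * g⁻¹ = wd X0 ^ i) : (i : ZMod 17) ^ 8 = 1 := by
  have := finite_he
  refine pow_of_norm orderOf_X0 (N := ⊤) ?_ (mem_top _) h
  rw [card_norm_inf (by norm_num) (by rw [card_he]; norm_num) sc orderOf_X0 (mem_top _)
    (by rw [card_top, card_he]; norm_num), card_top, card_he]

theorem tau_ne (g : Cfsg.Spor.He) : tau ≠ MulAut.conj g := by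
  intro h
  have h1 : g * wd X0 * g⁻¹ = wd X0 ^ 11 := by
    rw [← tau_X0, h]
    rfl
  have h2 := pow_inner h1
  revert h2
  decide

theorem pow_outer {b : MulAut Cfsg.Spor.He} (hb : ∀ g : Cfsg.Spor.He, b ≠ MulAut.conj g) {i : ℕ}
    (h : b (wd X0) = wd X0 ^ i) : (i : ZMod 17) ^ 8 = -1 := by
  have hbn : b ∉ (MulAut.conj : Cfsg.Spor.He →* MulAut Cfsg.Spor.He).range := fun ⟨g, hg⟩ => hb g hg.symm
  rcases Cfsg.Agent.KFacts.He.Outer.index_le_two (K := Cfsg.Spor.He) ⟨MulEquiv.refl _⟩ with h1 | h1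
  · exfalso
    apply hbn
    rw [Subgroup.index_eq_one.1 h1]
    exact mem_top _
  · have h2 : tau * b ∈ (MulAut.conj : Cfsg.Spor.He →* MulAut Cfsg.Spor.He).range := by
      rw [Subgroup.mul_mem_iff_of_index_two h1]
      exact ⟨fun ⟨g, hg⟩ => absurd hg.symm (tau_ne g), fun h => absurd h hbn⟩
    obtain ⟨g, hg⟩ := h2
    have h3 : g * wd X0 * g⁻¹ = wd X0 ^ (11 * i) := by
      have h4 : g * wd X0 * g⁻¹ = (MulAut.conj g) (wd X0) := rfl
      rw [h4, hg, MulAut.mul_apply, h, map_pow, tau_X0, ← pow_mul]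
    have h4 := pow_inner h3
    push_cast at h4
    rw [mul_pow, show (11 : ZMod 17) ^ 8 = -1 by decide] at h4
    linear_combination -h4

theorem surv_chk : ∀ g ∈ Cfsg.Agent.H257.El.surv 4030387200 fl 17 [],
    Cfsg.Agent.OrdDiv.ordN g ≠ 17 ∧ ((Cfsg.Agent.OrdDiv.ordN g / 17) % 17 ∣ 4 ∨ g = Cfsg.Agent.OrdDiv.Grp.psl 2 17) := by
  decide +kernel

theorem one_ne : (1 : ZMod 17) ≠ -1 := by decide

/-- **The outer involutory automorphisms.** -/
theorem good_outer (known : Cfsg.Agent.H257.El.Known.{0}) {a : MulAut Cfsg.Spor.He} (haa : a * a = 1)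
    (hne : ∀ g : Cfsg.Spor.He, a ≠ MulAut.conj g) : GoodA a := by
  have hfin := finite_he
  have h17 : Fact (Nat.Prime 17) := ⟨by norm_num⟩
  obtain ⟨hv, -, -, hsq, -⟩ := of_chkN chk_n
  have hsq' : ¬ 17 ^ 2 ∣ Nat.card Cfsg.Spor.He := by rwa [card_he]
  refine ⟨wd X0, fun K hxK hK => ?_⟩
  by_contra hKt
  set s : Cfsg.Spor.He := wd X0 with hsdef
  have hs : orderOf s = 17 := orderOf_X0
  have has : orderOf (a s) = 17 := by rw [MulEquiv.orderOf_eq, hs]
  have haas : ∀ y, a (a y) = y := fun y => by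
    rw [← MulAut.mul_apply, haa, MulAut.one_apply]
  have hpow : ∀ z ∈ zpowers s, ∃ i : ℕ, z = s ^ i := by
    intro z hz
    obtain ⟨i, hi⟩ := (isOfFinOrder_of_finite s).mem_powers_iff_mem_zpowers.2 hz
    exact ⟨i, hi.symm⟩
  rcases cases Cfsg.Agent.OrdDiv.table known card_he hv (by norm_num) hsq free17 hs hKt hxK with h | ⟨N, hN⟩
  · have h1 : a s ∈ zpowers s := by
      refine mem_of_norm (r := 17) (by norm_num) hsq' (by rw [Nat.card_zpowers, hs]) has (h (hK _ hxK))
    obtain ⟨i, hi⟩ := hpow _ h1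
    have h8 := pow_outer hne hi
    have h2 : s ^ (i * i) = s ^ 1 := by
      rw [pow_mul, ← hi, ← map_pow, ← hi, haas, pow_one]
    have h3 : i * i ≡ 1 [MOD 17] := by
      rw [pow_eq_pow_iff_modEq, hs] at h2
      exact h2
    rw [← ZMod.natCast_eq_natCast_iff] at h3
    push_cast at h3
    have h4 : (i : ZMod 17) ^ 8 = 1 := by
      calc (i : ZMod 17) ^ 8 = ((i : ZMod 17) * i) ^ 4 := by ring
        _ = 1 := by rw [h3, one_pow]
    rw [h4] at h8
    exact one_ne h8
  · have hsN := hN.mem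
    have h17N : 17 ∣ Nat.card N := by
      have := Subgroup.orderOf_dvd_natCard _ hsN
      rwa [hs] at this
    have hasN : a s ∈ N := mem_of_norm (r := 17) (by norm_num) hsq' h17N has (hN.le_norm (hK _ hxK))
    -- `a N = N`
    set M : Subgroup Cfsg.Spor.He := N.map a.toMonoidHom with hM
    have hMK : M ≤ K := by
      rintro _ ⟨y, hy, rfl⟩
      exact hK y (hN.le hy)
    have hcM : Nat.card M = Nat.card N := card_map_of_injective a.injective
    have hMs : IsSimpleGroup M := by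
      have := hN.simple
      have e : N ≃* M := N.equivMapOfInjective a.toMonoidHom a.injective
      have : Nontrivial M := e.symm.toEquiv.nontrivial
      exact IsSimpleGroup.isSimpleGroup_of_surjective e.toMonoidHom e.surjective
    have hnm : (N.subgroupOf M).Normal := ⟨fun n hn m => by
      rw [mem_subgroupOf] at hn ⊢
      exact (mem_normalizer_iff.1 (hN.le_norm (hMK m.2)) _).1 hn⟩
    have hMN : M ≤ N := by
      rcases hMs.eq_bot_or_eq_top_of_normal _ hnm with h1 | h1
      · exfalso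
        have h2 : (⟨a s, ⟨s, hsN, rfl⟩⟩ : M) ∈ N.subgroupOf M := mem_subgroupOf.2 hasN
        rw [h1, mem_bot] at h2
        have h3 : a s = 1 := congrArg Subtype.val h2
        rw [h3, orderOf_one] at has
        exact absurd has (by norm_num)
      · exact subgroupOf_eq_top.1 h1
    -- conjugate in `N`
    have hsqN : ¬ 17 ^ 2 ∣ Nat.card N := fun h => hsq' (h.trans (card_subgroup_dvd_card N))
    obtain ⟨m, hm⟩ := Cfsg.Agent.H257.El.conj_of_cyclic
      (fun S => Cfsg.Agent.H257.El.cyclic_of_sq hsqN S) (x := (⟨s, hsN⟩ : N)) (y := ⟨a s, hasN⟩)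
      (by rw [Subgroup.orderOf_mk, hs]) (by rw [Subgroup.orderOf_mk, has])
    have hm' : (m : Cfsg.Spor.He) * a s * (m : Cfsg.Spor.He)⁻¹ ∈ zpowers s := by
      obtain ⟨k, hk⟩ := mem_zpowers_iff.1 hm
      exact mem_zpowers_iff.2 ⟨k, congrArg Subtype.val hk⟩
    obtain ⟨i, hi⟩ := hpow _ hm'
    have h8 : (i : ZMod 17) ^ 8 = -1 := by
      refine pow_outer (b := MulAut.conj (m : Cfsg.Spor.He) * a) (fun g hg => ?_) hi
      refine hne ((m : Cfsg.Spor.He)⁻¹ * g) ?_
      rw [map_mul, ← hg, ← mul_assoc, ← map_mul, inv_mul_cancel, map_one, one_mul]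
    have hc : (m : Cfsg.Spor.He) * a m ∈ N := mul_mem m.2 (hMN ⟨m, m.2, rfl⟩)
    have hcs : ((m : Cfsg.Spor.He) * a m) * s * ((m : Cfsg.Spor.He) * a m)⁻¹ = s ^ (i * i) := by
      have h1 : a ((m : Cfsg.Spor.He) * a s * (m : Cfsg.Spor.He)⁻¹) = a m * s * (a m)⁻¹ := by
        rw [map_mul, map_mul, map_inv, haas]
      calc ((m : Cfsg.Spor.He) * a m) * s * ((m : Cfsg.Spor.He) * a m)⁻¹
          = (m : Cfsg.Spor.He) * (a m * s * (a m)⁻¹) * (m : Cfsg.Spor.He)⁻¹ := by group
        _ = (m : Cfsg.Spor.He) * (a s) ^ i * (m : Cfsg.Spor.He)⁻¹ := by rw [← h1, hi, map_pow]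
        _ = s ^ (i * i) := by rw [← conj_pow, hi, ← pow_mul]
    obtain ⟨g, hg, hgr, hgc⟩ := hN.real
    obtain ⟨hg1, hg2⟩ := surv_chk g hg
    have hcard := card_norm_inf (by norm_num) hsq' sc hs hsN (by rw [hgc]; exact hg1)
    have h5 := pow_of_norm hs hcard hc hcs
    rw [hgc] at h5
    rcases hg2 with ⟨t, ht⟩ | hg2
    · have h6 : ((i * i : ℕ) : ZMod 17) ^ 4 = 1 := by rw [ht, pow_mul, h5, one_pow]
      push_cast at h6
      have h7 : (i : ZMod 17) ^ 8 = 1 := by
        rw [← h6]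
        ring
      rw [h7] at h8
      exact one_ne h8
    · subst hg2
      obtain ⟨F, _, _, hF, ⟨e⟩⟩ := hgr
      obtain ⟨x, hx⟩ := exists_nine hF
      refine no_nine ((e.symm x : N) : Cfsg.Spor.He) ?_
      rw [Subgroup.orderOf_coe, MulEquiv.orderOf_eq, hx]

theorem spr_model (known : Cfsg.Agent.H257.El.Known.{0}) : Cfsg.Agent.H424.Spr.Spr Cfsg.Spor.He := by
  have := finite_he
  have : IsSimpleGroup Cfsg.Spor.He := Cfsg.Agent.S1695.result.1
  refine spr_of_out_two (exists_not_comm card_he (by norm_num)) (fun g hg => good_inner (oinc known) hg) (fun a => ?_)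
    (fun a ha hne => good_outer known (by rw [← pow_two, ← ha, pow_orderOf_eq_one]) hne)
  obtain ⟨g, hg⟩ := Cfsg.Agent.KFacts.He.Outer.sq_inner (K := Cfsg.Spor.He) ⟨MulEquiv.refl _⟩ a
  exact ⟨g, hg.symm⟩

/-- **3/2-generation of the Held group** -/
theorem spr_he (known : Cfsg.Agent.H257.El.Known.{0}) {T : Type} [Group T] [Finite T] (h : Spor.IsoHe T) :
    Cfsg.Agent.H424.Spr.Spr T := by
  obtain ⟨e⟩ := h
  exact Cfsg.Agent.H424.Spr.Spr.congr e.symm (spr_model known)

end Cfsg.Agent.H328.SprHe
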